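import Cfsg.Agent.H939.L16.Def
import Cfsg.Agent.H413.L64.TorZ
import Cfsg.Agent.H259.L64.Excl

/-!
# S5916, KAC17: the elements of order 17 of `E₈(2)`
-/

set_option autoImplicit false
set_option maxRecDepth 100000

namespace Cfsg.Agent.H943.L16

open Cfsg Cfsg.Lie
open Cfsg.Agent.ChevalleyStructure Cfsg.Agent.ChevalleyStructure.CoxeterGeomTypes
open Cfsg.Agent.H942.E8Tab Cfsg.Agent.H942.E8Alc Cfsg.Agent.H942.E8Val
open Cfsg.Agent.H944.RootVals Cfsg.Agent.H944.Tab Cfsg.Agent.H944.Kac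
open Cfsg.Agent.H939.L64 (KK E2 LK em aK fr TorZ)
open Cfsg.Agent.H939.L16 (V16)
open Cfsg.Agent.H413.L64 Cfsg.Agent.H259.L64

/-- the vector of the class of elements of order 17 with a centralizer of dimension 32 -/
def V32 : Fin 8 → ZMod 17 := ![1, 0, 0, 0, 0, 1, 1, 2]

/-- the alcove vectors with `F`-rational multiplicities -/
def LL : List (List ℕ) := [[0, 0, 0, 0, 0, 0, 0, 0], [0, 1, 1, 0, 1, 0, 1, 1], [1, 0, 0, 0, 0, 1, 1, 2],
  [1, 0, 0, 1, 0, 1, 0, 2], [2, 0, 0, 0, 0, 1, 2, 1]]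

/-- the test of one vector -/
def tst17 (Y : List ℕ) : Bool := bif invB 17 2 R8 Y then decide (Y ∈ LL) else true

/-- the vectors which begin with `a, b, c` -/
def pc17 (a b : ℕ) : Bool := allAlc [4, 6, 5, 4, 3, 2] (17 - 2 * a - 3 * b) fun y => tst17 (a :: b :: y)

theorem allAlc_of_cons {t : ℕ} {ts : List ℕ} {N : ℕ} {p : List ℕ → Bool}
    (h : ∀ x < N / t + 1, allAlc ts (N - t * x) (fun y => p (x :: y)) = true) : allAlc (t :: ts) N p = true := by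
  rw [allAlc, List.all_eq_true]
  intro x hx
  exact h x (List.mem_range.1 hx)

theorem pc17_00 : pc17 0 0 = true := by decide +kernel

theorem pc17_01 : pc17 0 1 = true := by decide +kernel

theorem pc17_0 : ∀ b < 4, pc17 0 (b + 2) = true := by decide +kernel

theorem pc17_10 : pc17 1 0 = true := by decide +kernel

theorem pc17_1 : ∀ b < 5, pc17 1 (b + 1) = true := by decide +kernel

theorem pc17_2 : ∀ b < 5, pc17 2 b = true := by decide +kernel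

theorem pc17_3 : ∀ b < 4, pc17 3 b = true := by decide +kernel

theorem pc17_4 : ∀ a < 5, ∀ b < 4, pc17 (a + 4) b = true := by decide +kernel

theorem pc17_all : ∀ a < 9, ∀ b < (17 - 2 * a) / 3 + 1, pc17 a b = true := by
  intro a ha b hb
  rcases a with _ | _ | _ | _ | a
  · rcases b with _ | _ | b
    · exact pc17_00
    · exact pc17_01
    · exact pc17_0 b (by omega)
  · rcases b with _ | b
    · exact pc17_10
    · exact pc17_1 b (by omega)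
  · exact pc17_2 b (by omega)
  · exact pc17_3 b (by omega)
  · exact pc17_4 a (by omega) b (by omega)

theorem chk17 : allAlc th8 17 (fun Y => bif invB 17 2 R8 Y then decide (Y ∈ LL) else true) = true := by
  have h1 : allAlc [2, 3, 4, 6, 5, 4, 3, 2] 17 tst17 = true := by
    refine allAlc_of_cons (t := 2) (ts := [3, 4, 6, 5, 4, 3, 2]) (N := 17) (p := tst17) fun a ha => ?_
    refine allAlc_of_cons (t := 3) (ts := [4, 6, 5, 4, 3, 2]) (N := 17 - 2 * a) (p := fun y => tst17 (a :: y))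
      fun b hb => ?_
    exact pc17_all a (by omega) b hb
  exact h1

theorem srefl_srefl (j : Fin 8) (v : Fin 8 → ZMod 17) : srefl chevE8 8 j (srefl chevE8 8 j v) = v := by
  funext i
  unfold srefl
  rw [e8T.isCartan.diag]
  push_cast
  ring

/-- every vector with an `F`-rational multiset is in the orbit of one of five -/
theorem five (P : (Fin 8 → ZMod 17) → Prop) (hPs : ∀ w j, P w → P (srefl chevE8 8 j w)) {v : Fin 8 → ZMod 17}
    (hv : P v) (h2 : (ms chevE8 8 v).map (fun a => 2 * a) = ms chevE8 8 v) :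
    ∃ Y ∈ LL, P (vecL 17 Y) ∧ ms chevE8 8 (vecL 17 Y) = ms chevE8 8 v := by
  obtain ⟨Y, hY, hd, hP, hm⟩ := exists_alcP (N := 17) (by norm_num) (fun w => P w ∧ ms chevE8 8 w = ms chevE8 8 v)
    (fun w j hw => ⟨hPs w j hw.1, by rw [ms_srefl e8T]; exact hw.2⟩) ⟨hv, rfl⟩
  refine ⟨Y, ?_, hP, hm⟩
  have h4 := allAlc_spec th8 17 _ (by decide) chk17 Y hY hd
  have h5 : invB 17 2 R8 Y = true := by
    refine invB_of (by norm_num) tab8 len8 ?_
    have h6 : ms chevE8 8 (vecL 17 Y) = (ms chevE8 8 (vecL 17 Y)).map (fun a => ((2 : ℕ) : ZMod 17) * a) := by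
      rw [hm]
      exact h2.symm
    exact h6
  rw [h5, cond_true, decide_eq_true_iff] at h4
  exact h4

/-- the orbit of `v` is the orbit of `Y` -/
theorem move {v : Fin 8 → ZMod 17} {Y : List ℕ} (h2 : (ms chevE8 8 v).map (fun a => 2 * a) = ms chevE8 8 v)
    (hY : ∀ Z ∈ LL, (ms chevE8 8 (vecL 17 Z)).count 0 = (ms chevE8 8 v).count 0 →
      (ms chevE8 8 (vecL 17 Z)).count 1 = (ms chevE8 8 v).count 1 → Z = Y) {x : E2} {ζ : KK}
    (h : TorZ x 17 (vecL 17 Y) ζ) : TorZ x 17 v ζ := by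
  obtain ⟨Z, hZ, hP, hm⟩ := five (fun w => TorZ x 17 w ζ → TorZ x 17 v ζ) (fun w j hw h1 => hw (by
    have h3 := T0a h1 j
    rwa [srefl_srefl] at h3)) (v := v) (fun h1 => h1) h2
  have h1 := hY Z hZ (by rw [hm]) (by rw [hm])
  rw [h1] at hP
  exact hP h

theorem vec16 : vecL 17 [1, 0, 0, 1, 0, 1, 0, 2] = V16 := by decide

theorem vec32 : vecL 17 [1, 0, 0, 0, 0, 1, 1, 2] = V32 := by decide

/-- the numbers of the values `0, …, 16` -/
def cl (Y : List ℕ) : List ℕ := (List.range 17).map fun c => cn 17 c Y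

/-- the units -/
def un (a b : ℕ) (h : (a : ZMod 17) * b = 1) : (ZMod 17)ˣ :=
  ⟨a, b, h, by rw [mul_comm]; exact h⟩

theorem cnt_mul {Y : List ℕ} (u : (ZMod 17)ˣ) (c : ZMod 17) :
    (ms chevE8 8 (fun i => (u : ZMod 17) * vecL 17 Y i)).count c = cn 17 ((((u⁻¹ : (ZMod 17)ˣ) : ZMod 17) * c).val) Y := by
  rw [count_smul]
  conv_lhs => rw [← ZMod.natCast_zmod_val (((u⁻¹ : (ZMod 17)ˣ) : ZMod 17) * c)]
  rw [count_vecL Y (ZMod.val_lt _)]

theorem cnt_zero {Y : List ℕ} : (ms chevE8 8 (vecL 17 Y)).count 0 = cn 17 0 Y := by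
  have h := count_vecL Y (N := 17) (c := 0) (by norm_num)
  rwa [Nat.cast_zero] at h

theorem cnt_one {Y : List ℕ} : (ms chevE8 8 (vecL 17 Y)).count 1 = cn 17 1 Y := by
  have h := count_vecL Y (N := 17) (c := 1) (by norm_num)
  rwa [Nat.cast_one] at h

theorem tabLL : LL.map (fun Y => (cn 17 0 Y, cn 17 1 Y, cn 17 3 Y)) = [(240, 0, 0), (8, 14, 15), (24, 17, 10),
    (8, 15, 14), (24, 10, 17)] := by decide +kernel

theorem two_inv {Y : List ℕ} (h : ∀ c < 17, cn 17 (2 * c % 17) Y = cn 17 c Y) (u : (ZMod 17)ˣ) :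
    (ms chevE8 8 (fun i => (u : ZMod 17) * vecL 17 Y i)).map (fun a => 2 * a) =
      ms chevE8 8 (fun i => (u : ZMod 17) * vecL 17 Y i) := by
  have h1 : (ms chevE8 8 (vecL 17 Y)).map (fun a => 2 * a) = ms chevE8 8 (vecL 17 Y) := by
    refine Multiset.ext.2 fun a => ?_
    have ha : a = 2 * (9 * a) := by
      rw [← mul_assoc]
      have : (2 * 9 : ZMod 17) = 1 := by decide
      rw [this, one_mul]
    have hinj : Function.Injective (fun a : ZMod 17 => 2 * a) := by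
      intro a b hab
      have h2 : (9 : ZMod 17) * (2 * a) = 9 * (2 * b) := congrArg (fun t => 9 * t) hab
      have h3 : (9 * 2 : ZMod 17) = 1 := by decide
      rwa [← mul_assoc, ← mul_assoc, h3, one_mul, one_mul] at h2
    conv_lhs => rw [ha]
    rw [Multiset.count_map_eq_count' _ _ hinj]
    have h4 := h (9 * a).val (ZMod.val_lt _)
    have h5 : 2 * (9 * a).val % 17 = a.val := by
      conv_rhs => rw [ha]
      rw [ZMod.val_mul]
      rfl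
    rw [h5] at h4
    have h6 := count_vecL Y (ZMod.val_lt a)
    have h7 := count_vecL Y (ZMod.val_lt (9 * a))
    rw [ZMod.natCast_zmod_val] at h6 h7
    rw [h6, h7, h4]
  rw [ms_smul, Multiset.map_map]
  conv_rhs => rw [← h1, Multiset.map_map]
  refine Multiset.map_congr rfl fun a _ => ?_
  simp only [Function.comp_apply]
  ring

theorem inv16 : ∀ c < 17, cn 17 (2 * c % 17) [1, 0, 0, 1, 0, 1, 0, 2] = cn 17 c [1, 0, 0, 1, 0, 1, 0, 2] := by
  decide +kernel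

theorem inv32 : ∀ c < 17, cn 17 (2 * c % 17) [1, 0, 0, 0, 0, 1, 1, 2] = cn 17 c [1, 0, 0, 0, 0, 1, 1, 2] := by
  decide +kernel

/-- the unit 6, the inverse of 3 -/
def u6 : (ZMod 17)ˣ := ⟨6, 3, by decide, by decide⟩

theorem mem_LL {Y : List ℕ} : Y ∈ LL ↔ Y = [0, 0, 0, 0, 0, 0, 0, 0] ∨ Y = [0, 1, 1, 0, 1, 0, 1, 1] ∨
    Y = [1, 0, 0, 0, 0, 1, 1, 2] ∨ Y = [1, 0, 0, 1, 0, 1, 0, 2] ∨ Y = [2, 0, 0, 0, 0, 1, 2, 1] := by
  simp [LL]

/-- the table of the numbers of the values 0 and 1 -/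
theorem tab : cn 17 0 [0, 0, 0, 0, 0, 0, 0, 0] = 240 ∧ cn 17 0 [0, 1, 1, 0, 1, 0, 1, 1] = 8 ∧
    cn 17 0 [1, 0, 0, 0, 0, 1, 1, 2] = 24 ∧ cn 17 0 [1, 0, 0, 1, 0, 1, 0, 2] = 8 ∧ cn 17 0 [2, 0, 0, 0, 0, 1, 2, 1] = 24 ∧
    cn 17 1 [0, 1, 1, 0, 1, 0, 1, 1] = 14 ∧ cn 17 1 [1, 0, 0, 0, 0, 1, 1, 2] = 17 ∧
    cn 17 1 [1, 0, 0, 1, 0, 1, 0, 2] = 15 ∧ cn 17 1 [2, 0, 0, 0, 0, 1, 2, 1] = 10 ∧
    cn 17 3 [1, 0, 0, 0, 0, 1, 1, 2] = 10 ∧ cn 17 3 [1, 0, 0, 1, 0, 1, 0, 2] = 14 := by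
  decide +kernel

theorem move16 {x : E2} {ζ : KK} (h : TorZ x 17 (vecL 17 [0, 1, 1, 0, 1, 0, 1, 1]) ζ) : TorZ x 17 V16 (ζ ^ 6) := by
  obtain ⟨t1, t2, t3, t4, t5, t6, t7, t8, t9, t10, t11⟩ := tab
  have h1 : TorZ x 17 (fun i => (u6 : ZMod 17) * vecL 17 [1, 0, 0, 1, 0, 1, 0, 2] i) ζ := by
    refine move (two_inv inv16 u6) (fun Z hZ h0 h1 => ?_) h
    rw [cnt_zero, cnt_mul, show (((u6⁻¹ : (ZMod 17)ˣ) : ZMod 17) * 0).val = 0 from by decide, t4] at h0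
    rw [cnt_one, cnt_mul, show (((u6⁻¹ : (ZMod 17)ˣ) : ZMod 17) * 1).val = 3 from by decide, t11] at h1
    rcases mem_LL.1 hZ with rfl | rfl | rfl | rfl | rfl
    · omega
    · rfl
    · omega
    · omega
    · omega
  have h2 := T0b u6 h1
  rw [vec16] at h2
  exact h2

theorem move32 {x : E2} {ζ : KK} (h : TorZ x 17 (vecL 17 [2, 0, 0, 0, 0, 1, 2, 1]) ζ) : TorZ x 17 V32 (ζ ^ 6) := by
  obtain ⟨t1, t2, t3, t4, t5, t6, t7, t8, t9, t10, t11⟩ := tab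
  have h1 : TorZ x 17 (fun i => (u6 : ZMod 17) * vecL 17 [1, 0, 0, 0, 0, 1, 1, 2] i) ζ := by
    refine move (two_inv inv32 u6) (fun Z hZ h0 h1 => ?_) h
    rw [cnt_zero, cnt_mul, show (((u6⁻¹ : (ZMod 17)ˣ) : ZMod 17) * 0).val = 0 from by decide, t3] at h0
    rw [cnt_one, cnt_mul, show (((u6⁻¹ : (ZMod 17)ˣ) : ZMod 17) * 1).val = 3 from by decide, t10] at h1
    rcases mem_LL.1 hZ with rfl | rfl | rfl | rfl | rfl
    · omega
    · omega
    · omega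
    · omega
    · rfl
  have h2 := T0b u6 h1
  rw [vec32] at h2
  exact h2

/-- **KAC17** : an element of order 17 of `E₈(2)` with a given root of unity `ζ` -/
theorem kac17_at {x : E2} (hx : x ^ 17 = 1) (h1 : x ≠ 1) {ζ : KK} (hζ : IsPrimitiveRoot ζ 17) :
    (TorZ x 17 V16 ζ ∨ ∃ ζ' : KK, ζ = ζ' ^ 3 ∧ TorZ x 17 V16 ζ') ∨
      (TorZ x 17 V32 ζ ∨ ∃ ζ' : KK, ζ = ζ' ^ 3 ∧ TorZ x 17 V32 ζ') := by
  obtain ⟨v, hv, h2, h3⟩ := T0c (N := 17) (by decide) hx hζ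
  have hv0 : v ≠ 0 := by
    rintro rfl
    refine h1 ?_
    have h4 := (h3 1).2 fun i => by rw [Pi.zero_apply, mul_zero]
    rwa [pow_one] at h4
  obtain ⟨Y, hY, ⟨hP, hP0⟩, -⟩ := five (fun w => TorZ x 17 w ζ ∧ w ≠ 0)
    (fun w j hw => ⟨T0a hw.1 j, fun h4 => hw.2 (srefl_eq_zero e8T h4)⟩) ⟨hv, hv0⟩ h2
  have h6 : ζ = (ζ ^ 6) ^ 3 := by
    rw [← pow_mul, show 6 * 3 = 17 + 1 by norm_num, pow_add, hζ.pow_eq_one, one_mul, pow_one]
  rcases mem_LL.1 hY with rfl | rfl | rfl | rfl | rfl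
  · exact absurd (by decide : vecL 17 [0, 0, 0, 0, 0, 0, 0, 0] = 0) hP0
  · exact Or.inl (Or.inr ⟨ζ ^ 6, h6, move16 hP⟩)
  · refine Or.inr (Or.inl ?_)
    rwa [vec32] at hP
  · refine Or.inl (Or.inl ?_)
    rwa [vec16] at hP
  · exact Or.inr (Or.inr ⟨ζ ^ 6, h6, move32 hP⟩)

/-- the field `KK` has a primitive root of unity of order 17 -/
theorem exists_prim : ∃ ζ : KK, IsPrimitiveRoot ζ 17 := by
  have h2 : ((17 : ℕ) : KK) ≠ 0 := by
    have hc := charKK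
    intro h
    have h1 := (CharP.cast_eq_zero_iff KK 2 17).1 h
    omega
  have : NeZero ((17 : ℕ) : KK) := ⟨h2⟩
  exact HasEnoughRootsOfUnity.exists_primitiveRoot KK 17

/-- **KAC17** -/
theorem kac17 {x : E2} (hx : x ^ 17 = 1) (h1 : x ≠ 1) : (∃ ζ : KK, TorZ x 17 V16 ζ) ∨ ∃ ζ : KK, TorZ x 17 V32 ζ := by
  obtain ⟨ζ, hζ⟩ := exists_prim
  rcases kac17_at hx h1 hζ with (h | ⟨ζ', -, h⟩) | (h | ⟨ζ', -, h⟩)
  · exact Or.inl ⟨ζ, h⟩
  · exact Or.inl ⟨ζ', h⟩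
  · exact Or.inr ⟨ζ, h⟩
  · exact Or.inr ⟨ζ', h⟩

end Cfsg.Agent.H943.L16
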